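import Mathlib
import Cfsg.Prelude.Def_LieTypeChar
import Cfsg.Agent.H346.Pw.TwoOf
import Cfsg.Agent.OddHalf.NI.ClosedSL
import Cfsg.Agent.Nodes.ChartTypeA
import Cfsg.Agent.OddHalf.NI.SpClosed
import Cfsg.Agent.Nodes.WittAll
import Cfsg.Agent.Nodes.TyChart
import Cfsg.Agent.TitsThree.KInstSp
import Cfsg.Agent.H63.Plus
import Cfsg.Agent.H63.Odd
import Cfsg.Agent.H63.Minus

/-!
# S2465 (LIE/U): products of two `r`-elements, linear, symplectic and orthogonal groups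
-/

set_option autoImplicit false
set_option linter.unusedSectionVars false

namespace Cfsg.Agent.H346.PwU

open CoxeterSystem Cfsg.Agent.ChevalleyStructure.CoxeterGeom Cfsg.Agent.Tits.Roots Cfsg.Agent.Tits.Core
  Cfsg.Agent.Nodes.Reps Cfsg.Agent.Nodes.BNOf Cfsg.Agent.Nodes.StabComb
  Cfsg.Agent.Nodes.RGDLib Cfsg.Agent.Nodes.Bruhat
open Cfsg.Agent.H514.DP (PE IsPE PW)
open Cfsg.Agent.Nodes
open Cfsg.Agent.Nodes.WittRoot (Amb)

/-! ### Linear groups -/

section PSL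

open Cfsg.Agent.Nodes.RGDTypeA Cfsg.Agent.Nodes.RootsA
open Cfsg.Agent.LieRecognition.BNCox (cA)

theorem pw_psl {r : ℕ} [Fact r.Prime] {S : Type*} [Group S] [IsSimpleGroup S] (h : IsPSLChar r S) : PW r 2 S := by
  obtain ⟨F, _, _, _, n, hn, -, ⟨e⟩⟩ := h
  obtain ⟨N, rfl⟩ : ∃ N, n = N + 2 := ⟨n - 2, by omega⟩
  have hW : Finite (cA (N + 1)).Group := finite_W (cA (N + 1)).toCoxeterSystem (isCartan (N + 1))
  refine pw_of_coord (rgd (F := F) (p := r) (cA (N + 1)).toCoxeterSystem (isCartan (N + 1)))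
    (G1_eq_top (F := F) (cA (N + 1)).toCoxeterSystem (isCartan (N + 1))) Cfsg.Agent.OddHalf.NI.ClosedSL.coord
    Cfsg.Agent.Nodes.ChartTypeA.irr (e.symm.toMonoidHom.comp (pr (N + 1) F))
    (e.symm.surjective.comp pr_surjective) ?_
  intro g hg
  have h1 : pr (N + 1) F g = 1 := e.symm.injective (by rw [map_one]; exact hg)
  have h2 : g ∈ (pr (N + 1) F).ker := h1
  rwa [ker_pr] at h2

end PSL

/-! ### Symplectic groups -/

section PSp

open Cfsg.Agent.Nodes.TypeC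
open Cfsg.Agent.TitsThree.Siegel Cfsg.Agent.TitsThree.WittFrame Cfsg.Agent.TitsThree.WittWeyl
open Cfsg.Agent.TitsThree.SpIdent
open Cfsg.Agent.OddHalf.NI

theorem pw_psp {r : ℕ} [Fact r.Prime] {S : Type*} [Group S] [IsSimpleGroup S] (h : IsPSpChar r S) : PW r 2 S := by
  obtain ⟨F, _, _, _, m, hm, -, ⟨e⟩⟩ := h
  have : Finite (CoxeterMatrix.B m).Group := TypeC.finite_W (CoxeterMatrix.B m).toCoxeterSystem
  have : Finite ((Fin m ⊕ Fin m → F) ≃ₗ[F] (Fin m ⊕ Fin m → F)) :=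
    Finite.of_injective (fun g : (Fin m ⊕ Fin m → F) ≃ₗ[F] (Fin m ⊕ Fin m → F) =>
      (g : (Fin m ⊕ Fin m → F) → (Fin m ⊕ Fin m → F))) DFunLike.coe_injective
  have hA : Amb (frame m F) (isos (form m F)) := WittU.amb_Sp
  have hAT := WittAll.AmbT.of_amb hA r
  have R := rgd_restrict (WittAll.rgdC hAT (p0 := adm (1 : F)) one_ne_zero
    (CoxeterMatrix.B m).toCoxeterSystem) (isos (form m F)) (fun x _ => hA.rg_le x)
    (fun i => WittAll.nn_mem hAT (adm (1 : F)) i)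
  have hG1 : G1 (CoxeterMatrix.B m).toCoxeterSystem (isCartan m)
      (fun x => (WittRoot.rg (frame m F) x).subgroupOf (isos (form m F))) = ⊤ := by
    apply SpClosed.gen (by omega)
    · intro i
      exact X_le_G1 (X := fun x => (WittRoot.rg (frame m F) x).subgroupOf (isos (form m F)))
        (isRoot_sr _ _ i)
    · intro i
      exact X_le_G1 (X := fun x => (WittRoot.rg (frame m F) x).subgroupOf (isos (form m F)))
        (isRoot_sr _ _ i).neg
  have : Nonempty (Fin m) := ⟨⟨0, by omega⟩⟩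
  refine pw_of_coord R hG1 (WittCoord.coord (SpClosed.lf (F := F) (m := m)) hA) (Chart.Ty.irrC m (by omega))
    (e.symm.toMonoidHom.comp (toPSp (m := m) (F := F))) (e.symm.surjective.comp toPSp_surjective) ?_
  intro g hg
  have h1 : toPSp (m := m) (F := F) g = 1 := e.symm.injective (by rw [map_one]; exact hg)
  exact WittAll.ker_le_center (TitsThree.KInstSp.model m F) h1

end PSp

/-! ### Orthogonal groups -/

section Orth

open QuadraticMap
open Cfsg.Agent.LieClassical Cfsg.Agent.LieClassical.OrthCore Cfsg.Agent.LieClassical.OrthTrans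
open Cfsg.Agent.LieClassical.OrthSimple Cfsg.Agent.LieClassical.OrthFinite Cfsg.Agent.LieClassical.OrthForms
open Cfsg.Agent.TitsThree Cfsg.Agent.TitsThree.Siegel Cfsg.Agent.TitsThree.SiegelGen
  Cfsg.Agent.TitsThree.WittFrame Cfsg.Agent.TitsThree.WittWeyl Cfsg.Agent.TitsThree.WBridge
  Cfsg.Agent.TitsThree.KSideO Cfsg.Agent.TitsThree.StdData
open Cfsg.Agent.Nodes.WittAll Cfsg.Agent.Nodes.WittInst
open Cfsg.Agent.OddHalf.NI Cfsg.Agent.OddHalf.NI.OmegaNodes Cfsg.Agent.OddHalf.NI.OmegaLast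
  Cfsg.Agent.OddHalf.NI.OmegaTorus Cfsg.Agent.OddHalf.NI.OmegaRows
open Cfsg.Agent.H63 Cfsg.Agent.H63.Asm

theorem pw_orth {κ : Type} [Fintype κ] [DecidableEq κ] {F : Type} [Field F] [Finite F] {Q : QuadraticForm F (κ → F)}
    {m : ℕ} {W : WFrame (PO Q) m} {B : Type} [CommGroup B] {D : (Fin m → Fˣ) × B →* ((κ → F) ≃ₗ[F] (κ → F))}
    {emb : Fˣ → B} {P : Fˣ → Prop} (N : ∀ i, Node W D emb P i) (hG : Good Q) {p : ℕ} [hp : Fact p.Prime] [CharP F p]
    (hA : AmbT (toFrame W) p (E Q)) {p0 : (toFrame W).Adm} (hp0 : p0.c ≠ 0) (hm : 1 ≤ m)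
    {S : Type*} [Group S] [IsSimpleGroup S] (e : S ≃* Cfsg.POmega F ⇑Q) : PW p 2 S := by
  have hfin : Finite (CoxeterMatrix.B m).Group := TypeC.finite_W (CoxeterMatrix.B m).toCoxeterSystem
  have R := rgdC_model (model W hG ⟨p0, hp0⟩) hA hp0 (CoxeterMatrix.B m).toCoxeterSystem
  have := finite_PO hG
  have : Nonempty (Fin m) := ⟨⟨0, by omega⟩⟩
  exact pw_of_coord R (WittModel.G1_eq_top _ hm _) (NodeBd.coordP N hA.rg_le hG ⟨p0, hp0⟩) (Chart.Ty.irrC m hm)
    e.symm.toMonoidHom e.symm.surjective (by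
      intro x hx
      have h1 : x = 1 := e.symm.injective (by rw [map_one]; exact hx)
      rw [h1]
      exact one_mem _)

theorem pw_odd {r : ℕ} [Fact r.Prime] {S : Type*} [Group S] [IsSimpleGroup S] (h : IsPOmegaOddChar r S) :
    PW r 2 S := by
  obtain ⟨F, _, _, _, m, hm, ho, ⟨e⟩⟩ := h
  have e' : Nonempty (S ≃* Cfsg.POmega F (Cfsg.quadFormOdd m F)) := ⟨e⟩
  have h2 : (2 : F) ≠ 0 := by
    intro h2
    have : CharP F 2 := CharTwo.of_one_ne_zero_of_two_eq_zero one_ne_zero h2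
    have h3 := (CharP.cast_eq_zero_iff F 2 (Fintype.card F)).1 (FiniteField.cast_card_eq_zero F)
    rw [← even_iff_two_dvd] at h3
    exact (Nat.not_even_iff_odd.2 ho) h3
  rw [← coe_oddForm] at e'
  obtain ⟨e⟩ := e'
  have hG : Good (oddForm m F) := Odd.good h2 (by omega)
  obtain ⟨p0, hp0⟩ := Odd.exists_adm m F
  exact pw_orth (nodeO m) hG (AmbT.of_amb (amb_O_of_two (wodd m F) h2) r) hp0 (by omega) e

theorem pw_minus {r : ℕ} [Fact r.Prime] {S : Type*} [Group S] [IsSimpleGroup S] (h : IsPOmegaMinusChar r S) :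
    PW r 2 S := by
  obtain ⟨F, _, _, _, m, a, b, hm, hab, ⟨e⟩⟩ := h
  have e' : Nonempty (S ≃* Cfsg.POmega F (Cfsg.quadFormMinus (m - 1) F a b)) := ⟨e⟩
  rw [← coe_minusForm] at e'
  obtain ⟨e⟩ := e'
  have hG := Minus.good (m - 1) a b hab (by omega)
  obtain ⟨p0, hp0⟩ := Minus.exists_adm (m - 1) a b hab
  exact pw_orth (nodeM (m - 1) a b hab) hG (Minus.ambT (m - 1) a b hab (by omega) hG (p := r)) hp0 (by omega) e

theorem pw_plus {r : ℕ} [Fact r.Prime] {S : Type*} [Group S] [IsSimpleGroup S] (h : IsPOmegaPlusChar r S) :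
    PW r 2 S := by
  obtain ⟨F, _, _, _, m, hm, ⟨e⟩⟩ := h
  obtain ⟨n, rfl⟩ : ∃ n, m = n + 2 := ⟨m - 2, by omega⟩
  have e' : Nonempty (S ≃* Cfsg.POmega F (Cfsg.quadFormPlus (n + 2) F)) := ⟨e⟩
  rw [← coe_plusForm] at e'
  obtain ⟨e⟩ := e'
  have hG := Plus.good_plus F (m := n + 2) (by omega)
  have := finite_PO hG
  have hfin : Finite (TypeD.M n).Group := TypeD.finite_W (TypeD.M n).toCoxeterSystem
  have R := rgdD_model (p := r) (wplus (n + 2) F) hG (amb_plus _) (adm_plus _) (TypeD.M n).toCoxeterSystem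
  exact pw_of_coord R (G1D_eq_top _ (toPOmega hG) (toPOmega_surjective hG) (adm_plus _) _)
    (PlusBd.coordP _ hG) (Chart.Ty.irrD n (by omega)) e.symm.toMonoidHom e.symm.surjective (by
      intro x hx
      have h1 : x = 1 := e.symm.injective (by rw [map_one]; exact hx)
      rw [h1]
      exact one_mem _)

end Orth

end Cfsg.Agent.H346.PwU
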