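import Mathlib
import Cfsg.Prelude.Def_LieTypeChar
import Cfsg.Agent.H346.Pw.TwoOf
import Cfsg.Agent.OddHalf.NI.ModelChev
import Cfsg.Agent.Nodes.ChevChart

/-!
# S2465 (LIE/U): products of two `r`-elements, `G₂`, `F₄`, `E₆`, `E₇`, `E₈`
-/

set_option autoImplicit false
set_option linter.unusedSectionVars false

namespace Cfsg.Agent.H346.PwU

open CoxeterSystem Cfsg.Agent.ChevalleyStructure.CoxeterGeom Cfsg.Agent.Tits.Roots Cfsg.Agent.Tits.Core
open Cfsg.Agent.H514.DP (PW)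
open Cfsg.Lie Cfsg.Agent.ChevalleyStructure Cfsg.Agent.ChevalleyStructure.CoxeterGeomTypes
  Cfsg.Agent.Nodes.RGDChev Cfsg.Agent.KFacts.RgdChevCoord Cfsg.Agent.OddHalf.NI.ModelChev

theorem pw_chev {D : ChevalleyDatum} {l : ℕ} {M : CoxeterMatrix (Fin l)} (hp : IsType D l M) {K : Type} [Field K]
    [Finite K] {r : ℕ} [Fact r.Prime] [CharP K r] (hl : 0 < l)
    (hM : ∀ J : Finset (Fin l), J = ∅ ∨ J = Finset.univ ∨ ∃ a ∈ J, ∃ b, b ∉ J ∧ M a b ≠ 2)
    {S : Type*} [Group S] [IsSimpleGroup S] (e : S ≃* ↥(D.group K)) : PW r 2 S := by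
  have := finite_W hp M.toCoxeterSystem
  have : Nonempty (Fin l) := ⟨⟨0, hl⟩⟩
  exact pw_of_coord (rgd (K := K) hp M.toCoxeterSystem r) (G1_eq_top hp _)
    (s := fun i => sl hp (K := K) i) ⟨fun i => coe_X hp i, fun i => coe_X_neg hp i⟩
    (Cfsg.Agent.Nodes.ChevChart.irr_of hM) e.symm.toMonoidHom e.symm.surjective (by
      intro x hx
      have h1 : x = 1 := e.symm.injective (by rw [map_one]; exact hx)
      rw [h1]
      exact one_mem _)

theorem pw_exc {r : ℕ} [Fact r.Prime] {S : Type*} [Group S] [IsSimpleGroup S] (h : IsExceptionalChevChar r S) :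
    PW r 2 S := by
  obtain ⟨F, _, _, _, ⟨-, ⟨e⟩⟩ | ⟨⟨e⟩⟩ | ⟨⟨e⟩⟩ | ⟨⟨e⟩⟩ | ⟨⟨e⟩⟩⟩ := h
  · exact pw_chev (M := CoxeterMatrix.G₂) (by simp [IsType, typeList]) (by norm_num)
      Cfsg.Agent.Nodes.ChevChart.irrG e
  · exact pw_chev (M := CoxeterMatrix.F₄) (by simp [IsType, typeList]) (by norm_num)
      Cfsg.Agent.Nodes.ChevChart.irrF e
  · exact pw_chev (M := CoxeterMatrix.E₆) (by simp [IsType, typeList]) (by norm_num)
      Cfsg.Agent.Nodes.ChevChart.irr6 e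
  · exact pw_chev (M := CoxeterMatrix.E₇) (by simp [IsType, typeList]) (by norm_num)
      Cfsg.Agent.Nodes.ChevChart.irr7 e
  · exact pw_chev (M := CoxeterMatrix.E₈) (by simp [IsType, typeList]) (by norm_num)
      Cfsg.Agent.Nodes.ChevChart.irr8 e

end Cfsg.Agent.H346.PwU
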