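import Mathlib
import Cfsg.Prelude.Def_LieTypeChar
import Cfsg.Agent.H514.DP.Core
import Cfsg.Agent.H84.TwF4Cover
import Cfsg.Agent.H147.SzCover
import Cfsg.Agent.H147.SzClass

/-!
# S2465 (LIE/U): products of two elements of 2-power order, `²B₂(q)` and `²F₄(q)`
-/

set_option autoImplicit false
set_option linter.unusedSectionVars false

namespace Cfsg.Agent.H346.PwU

open Cfsg
open Cfsg.Agent.H514.DP (PE IsPE PW)

/-- `v y`, `v` in a `p`-group normalised by the `p`-element `y` -/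
theorem isPE_mul_of_norm {G : Type*} [Group G] {p : ℕ} {J : Subgroup G} (hJ : IsPGroup p J) {v y : G} (hv : v ∈ J)
    (hy : IsPE p y) (hn : ∀ u ∈ J, y * u * y⁻¹ ∈ J) : IsPE p (v * y) := by
  have h1 : ∀ n : ℕ, ∃ w ∈ J, (v * y) ^ n = w * y ^ n := by
    intro n
    induction n with
    | zero => exact ⟨1, one_mem _, by simp⟩
    | succ n ih =>
      obtain ⟨w, hw, e⟩ := ih
      have h2 : ∀ m : ℕ, ∀ u ∈ J, y ^ m * u * (y ^ m)⁻¹ ∈ J := by
        intro m
        induction m with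
        | zero => intro u hu; simpa using hu
        | succ m ihm =>
          intro u hu
          have h3 := ihm _ (hn u hu)
          have e3 : y ^ (m + 1) * u * (y ^ (m + 1))⁻¹ = y ^ m * (y * u * y⁻¹) * (y ^ m)⁻¹ := by
            rw [pow_succ]; group
          rw [e3]
          exact h3
      refine ⟨w * (y ^ n * v * (y ^ n)⁻¹), mul_mem hw (h2 n v hv), ?_⟩
      rw [pow_succ, e, pow_succ]
      group
  obtain ⟨k, hk⟩ := hy
  obtain ⟨w, hw, e⟩ := h1 (p ^ k)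
  rw [hk, mul_one] at e
  obtain ⟨l, hl⟩ := hJ ⟨w, hw⟩
  have hl' : w ^ p ^ l = 1 := congrArg Subtype.val hl
  exact ⟨k + l, by rw [pow_add, pow_mul, e, hl']⟩

/-- `x u`, `u` in a `p`-group normalised by the `p`-element `x` -/
theorem isPE_mul_of_norm' {G : Type*} [Group G] {p : ℕ} {J : Subgroup G} (hJ : IsPGroup p J) {u x : G} (hu : u ∈ J)
    (hx : IsPE p x) (hn : ∀ u ∈ J, x * u * x⁻¹ ∈ J) : IsPE p (x * u) := by
  have h1 := isPE_mul_of_norm hJ (hn u hu) hx hn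
  have e : x * u * x⁻¹ * x = x * u := by group
  rwa [e] at h1

/-- products of two elements -/
theorem pe_two {G : Type*} [Group G] {p : ℕ} {a b : G} (ha : IsPE p a) (hb : IsPE p b) : PE p 2 (a * b) :=
  ha.pe.mul hb.pe

/-- **Suzuki groups.** -/
theorem pw_sz {S : Type*} [Group S] (h : Lie.IsoSuzuki S) : PW 2 2 S := by
  obtain ⟨F, _, _, m, hm, hF, ⟨f⟩⟩ := h
  have h1 : PW 2 2 ↥(Lie.Sz F (2 ^ (m + 1))) := by
    intro g
    by_cases hg : g = 1
    · subst hg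
      exact Cfsg.Agent.H514.DP.pe_one_elt 2
    have H := Cfsg.Agent.LieRecognition.SzMatrix.good hF
    have e2 : H.u 1 0 * H.u 1 0 = H.u 0 1 := by
      rw [Cfsg.Agent.H147.Sz.u_sq, map_one, mul_one]
    have e4 : (H.u 1 0) ^ 4 = 1 := by
      rw [Cfsg.Agent.H84.SzLevi.four_eq, e2, Cfsg.Agent.H147.Sz.u_sq, zero_mul, H.u_zero]
    have hne : (H.u 1 0) ^ 2 ≠ 1 := by
      rw [pow_two, e2]
      intro h
      exact one_ne_zero ((Cfsg.Agent.H147.Sz.u_eq_one_iff H).1 h).2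
    have ho : 2 < orderOf (H.u 1 0) := by
      have hfin : Finite ↥(Cfsg.Lie.Sz F (2 ^ (m + 1))) := inferInstance
      have h3 := orderOf_pos (H.u 1 0)
      by_contra hcon
      have h4 : orderOf (H.u 1 0) = 1 ∨ orderOf (H.u 1 0) = 2 := by omega
      apply hne
      rw [← orderOf_dvd_iff_pow_eq_one]
      rcases h4 with h4 | h4 <;> simp [h4]
    obtain ⟨a, b, e⟩ := Cfsg.Agent.S2457.result m hm hF (H.u 1 0) ho g hg
    have hp : IsPE 2 (H.u 1 0) := ⟨2, e4⟩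
    rw [e]
    exact pe_two (by
      obtain ⟨k, hk⟩ := hp
      exact ⟨k, by rw [conj_pow, hk, mul_one, mul_inv_cancel]⟩) (by
      obtain ⟨k, hk⟩ := hp
      exact ⟨k, by rw [conj_pow, hk, mul_one, mul_inv_cancel]⟩)
  intro s
  have h2 := (h1 (f s)).map f.symm.toMonoidHom
  have h3 : f.symm.toMonoidHom (f s) = s := f.symm_apply_apply s
  rwa [h3] at h2

section TwF

open Cfsg.Agent.SplitTwo Cfsg.Agent.SplitTwo.ZS Cfsg.Agent.TitsThree.RankTwoZ
open Cfsg.Agent.KFacts.TwF4 Cfsg.Agent.KFacts.TwF4.Arc Cfsg.Agent.KFacts.TwF4.Inv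
open Cfsg.Agent.H84.TwF4Two Cfsg.Agent.H84.GaussTwF4
open Cfsg.Agent.KFacts.TwF4.Inst Cfsg.Agent.ChevalleyStructure.TwF4.TwistedFix
open Cfsg.Lie

universe u

variable {F : Type*} [Field F] {σ : F →+* F} {G : Type u} [Group G] (S : Full σ G)

theorem pe_full [Finite F] [Finite G] (hR : S.R.p = 2) {k : ℕ} (hk : 2 ≤ k) (hF : Nat.card F = 2 ^ k) {g : G}
    (hg : g ≠ 1) : PE 2 2 g := by
  obtain ⟨v, hv, l, hl, u, hu, c, hc⟩ := gd (S := S) hg 1
  rw [S.h_one, mul_one] at hc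
  have h1 := LL_iso S hk hF
  rw [LJ_eq] at h1
  obtain ⟨y, z, hy, ⟨x, w, hx, hw, hxw⟩, hyz⟩ := pw_sz h1 ⟨l, hl⟩
  have hw' : w = 1 := hw
  subst hw'
  rw [mul_one] at hxw
  subst hxw
  have hl' : (y : G) * x = l := congrArg Subtype.val hyz
  have hy' : IsPE 2 (y : G) := by
    obtain ⟨k, hk⟩ := hy
    exact ⟨k, congrArg Subtype.val hk⟩
  have hx' : IsPE 2 (x : G) := by
    obtain ⟨k, hk⟩ := hx
    exact ⟨k, congrArg Subtype.val hk⟩
  have k1 : IsPE 2 (v * (y : G)) := isPE_mul_of_norm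
    (isPGroup_J S.zsys8 (two_X S hR) 8 9 15 (by norm_num) (by norm_num)) hv hy' fun u hu => LL_conj915 y.2 hu
  have k2 : IsPE 2 ((x : G) * u) := isPE_mul_of_norm'
    (isPGroup_J S.zsys8 (two_X S hR) 8 1 7 (by norm_num) (by norm_num)) hu hx' fun u hu => LL_conj17 x.2 hu
  have h2 : PE 2 2 (c * g * c⁻¹) := by
    rw [hc, ← hl']
    have e : v * ((y : G) * x) * u = (v * (y : G)) * ((x : G) * u) := by group
    rw [e]
    exact pe_two k1 k2
  have h3 := h2.conj c⁻¹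
  rw [inv_inv] at h3
  have e : c⁻¹ * (c * g * c⁻¹) * c = g := by group
  rwa [e] at h3

/-- **`²F₄(q)`, `q ≥ 8`.** -/
theorem pw_2f4 {S : Type*} [Group S] (h : Lie.Iso2F4 S) : PW 2 2 S := by
  obtain ⟨K, _, _, m, hm, hK, ⟨f⟩⟩ := h
  have hchar := Cfsg.Agent.ChevalleyStructure.TwF4.Twisted.charP_two hK
  obtain ⟨φ, hφ⟩ := exists_rln hK
  have hfin : Finite (GL chevF4.Idx K) := inferInstance
  have h1 : PW 2 2 ↥(twistedF4 K (2 ^ m)) := by
    intro g
    by_cases hg : g = 1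
    · subst hg
      exact Cfsg.Agent.H514.DP.pe_one_elt 2
    obtain ⟨S, hS⟩ : ∃ S : Full φ ↥(twistedF4 K (2 ^ m)), S.R.p = 2 := ⟨full hK hφ, rfl⟩
    exact pe_full S hS (k := 2 * m + 1) (by omega) (by rw [Nat.card_eq_fintype_card, hK]) hg
  intro s
  have h2 := (h1 (f s)).map f.symm.toMonoidHom
  have h3 : f.symm.toMonoidHom (f s) = s := f.symm_apply_apply s
  rwa [h3] at h2

end TwF

end Cfsg.Agent.H346.PwU
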